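import Mathlib

set_option autoImplicit false

/-!
Project BREADTH (helper33): S3777, Vaughan-Lee's breadth theorem.

We prove the stronger statement `PkgQ`: if `C` has index `p` in the finite `p`-group `G` and every
element outside `C` has at most `p ^ b` conjugates, then `|G'| ≤ p ^ (b (b + 1) / 2)`.

This file: the exact statements of the packages (as `Prop`s).
-/

namespace Cfsg.Agent.Lib.Helper33.Breadth

universe u

/-- [Q] the strengthened statement. -/
def PkgQ : Prop :=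
  ∀ {G : Type u} [Group G] [Finite G] (p : ℕ) [Fact p.Prime], IsPGroup p G →
    ∀ (C : Subgroup G), C.index = p → ∀ b : ℕ,
      (∀ z : G, z ∉ C → (Subgroup.centralizer ({z} : Set G)).index ≤ p ^ b) →
      Nat.card (commutator G) ≤ p ^ (b * (b + 1) / 2)

/-- [NORM] a subgroup of index `p` of a finite `p`-group is normal. -/
def PkgNorm : Prop :=
  ∀ {G : Type u} [Group G] [Finite G] (p : ℕ) [Fact p.Prime], IsPGroup p G →
    ∀ (C : Subgroup G), C.index = p → C.Normal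

/-- [TWOMAX] a non-cyclic finite `p`-group has a second subgroup of index `p`. -/
def PkgTwoMax : Prop :=
  ∀ {Q : Type u} [Group Q] [Finite Q] (p : ℕ) [Fact p.Prime], IsPGroup p Q → ¬ IsCyclic Q →
    ∀ (D : Subgroup Q), D.index = p → ∃ M : Subgroup Q, M.index = p ∧ M ≠ D

/-- [C1] case `C' ≠ G'`: a second maximal subgroup `M` all of whose elements outside `C` have
their centralizer inside `M`. -/
def PkgCase1 : Prop :=
  ∀ {G : Type u} [Group G] [Finite G] (p : ℕ) [Fact p.Prime], IsPGroup p G →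
    ∀ (C : Subgroup G), C.index = p → ⁅C, C⁆ ≠ commutator G →
      ∃ M : Subgroup G, M.index = p ∧ M ≠ C ∧
        ∀ m : G, m ∈ M → m ∉ C → Subgroup.centralizer ({m} : Set G) ≤ M

/-- [DROP] if `C_G(m) ≤ M` and `|G : M| = p` then `|M : C_M(m)| * p = |G : C_G(m)|`. -/
def PkgDrop : Prop :=
  ∀ {G : Type u} [Group G] [Finite G] (p : ℕ) [Fact p.Prime] (M : Subgroup G) (m : ↥M),
    M.index = p → Subgroup.centralizer ({(m : G)} : Set G) ≤ M →
    (Subgroup.centralizer ({m} : Set ↥M)).index * p =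
      (Subgroup.centralizer ({(m : G)} : Set G)).index

/-- [MONO] `|M : C_M(m)| ≤ |G : C_G(m)|`. -/
def PkgMono : Prop :=
  ∀ {G : Type u} [Group G] [Finite G] (M : Subgroup G) (m : ↥M),
    (Subgroup.centralizer ({m} : Set ↥M)).index ≤
      (Subgroup.centralizer ({(m : G)} : Set G)).index

/-- [SUBIDX] two different subgroups of index `p` of a finite `p`-group: `|M : M ∩ C| = p`. -/
def PkgSubIdx : Prop :=
  ∀ {G : Type u} [Group G] [Finite G] (p : ℕ) [Fact p.Prime], IsPGroup p G →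
    ∀ (M C : Subgroup G), M.index = p → C.index = p → M ≠ C → (C.subgroupOf M).index = p

/-- [CARD] the derived subgroup of `↥M` and `⁅M, M⁆` have the same order. -/
def PkgCommCard : Prop :=
  ∀ {G : Type u} [Group G] (M : Subgroup G), Nat.card (commutator ↥M) = Nat.card ↥⁅M, M⁆

/-- [AB] `Q = A ⟨g⟩` with `A` abelian normal: `|Q'| ≤ |Q : C_Q(g)|`. -/
def PkgAbStep : Prop :=
  ∀ {Q : Type u} [Group Q] [Finite Q] (A : Subgroup Q) (g : Q), A.Normal →
    (∀ a ∈ A, ∀ b ∈ A, a * b = b * a) → (∀ x : Q, ∃ a ∈ A, ∃ k : ℤ, x = a * g ^ k) →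
    Nat.card (commutator Q) ≤ (Subgroup.centralizer ({g} : Set Q)).index

/-- [STEP] `|G'| ≤ |G : C_G(g)| * |M'|` for `M` of index `p` and `g ∉ M`. -/
def PkgStep : Prop :=
  ∀ {G : Type u} [Group G] [Finite G] (p : ℕ) [Fact p.Prime], IsPGroup p G →
    ∀ (M : Subgroup G) (g : G), M.index = p → g ∉ M →
      Nat.card (commutator G) ≤
        (Subgroup.centralizer ({g} : Set G)).index * Nat.card ↥⁅M, M⁆

/-- [KER] a subgroup of index `p` of a finite `p`-group is the zero set of an additive character. -/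
def PkgKer : Prop :=
  ∀ {G : Type u} [Group G] [Finite G] (p : ℕ) [Fact p.Prime], IsPGroup p G →
    ∀ (C : Subgroup G), C.index = p →
      ∃ χ : G → ZMod p, (∀ x z, χ (x * z) = χ x + χ z) ∧ ∀ x, χ x = 0 ↔ x ∈ C

/-- [KERIDX] the zero set of a nonzero additive character is a normal subgroup of index `p`. -/
def PkgKerIdx : Prop :=
  ∀ {G : Type u} [Group G] [Finite G] (p : ℕ) [Fact p.Prime] (χ : G → ZMod p),
    (∀ x z, χ (x * z) = χ x + χ z) → (∃ x, χ x ≠ 0) →
    ∃ M : Subgroup G, M.Normal ∧ M.index = p ∧ ∀ x, x ∈ M ↔ χ x = 0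

/-- [SEP] a nontrivial element of an elementary abelian `p`-group is detected by a character. -/
def PkgSep : Prop :=
  ∀ {A : Type u} [CommGroup A] [Finite A] (p : ℕ) [Fact p.Prime], (∀ a : A, a ^ p = 1) →
    ∀ a0 : A, a0 ≠ 1 → ∃ μ : A → ZMod p, (∀ a b, μ (a * b) = μ a + μ b) ∧ μ a0 ≠ 0

/-- [CHIEFK] between normal subgroups `K < N` of a finite `p`-group there is a normal `R` with
`K ≤ R < N` and `N / R` central of exponent `p`. -/
def PkgChiefK : Prop :=
  ∀ {G : Type u} [Group G] [Finite G] (p : ℕ) [Fact p.Prime], IsPGroup p G →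
    ∀ (N K : Subgroup G), N.Normal → K.Normal → K < N →
      ∃ R : Subgroup G, R.Normal ∧ K ≤ R ∧ R < N ∧ (∀ a ∈ N, ∀ g : G, a * g * a⁻¹ * g⁻¹ ∈ R) ∧
        (∀ a ∈ N, a ^ p ∈ R)

/-- [SEPG] a `G`-invariant character of `N` killing `K`. -/
def PkgSepG : Prop :=
  ∀ {G : Type u} [Group G] [Finite G] (p : ℕ) [Fact p.Prime], IsPGroup p G →
    ∀ (N K : Subgroup G), N.Normal → K.Normal → K < N →
      ∃ lam : G → ZMod p, (∀ a ∈ N, ∀ b ∈ N, lam (a * b) = lam a + lam b) ∧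
        (∀ a ∈ N, ∀ g : G, lam (g * a * g⁻¹) = lam a) ∧ (∀ a ∈ K, lam a = 0) ∧
        (∃ a ∈ N, lam a ≠ 0)

/-- [E3M] the matrix lemma (Chevalley-Warning). -/
def PkgE3M : Prop :=
  ∀ (p : ℕ) [Fact p.Prime] (d : ℕ)
    (B : Fin (d + 1) → Matrix (Fin (d + 1)) (Fin (d + 1)) (ZMod p)),
    (∀ i j k, B i k j = - B j k i) → (∀ i k, B i k i = 0) →
    ∃ a : Fin (d + 1) → ZMod p, a ≠ 0 ∧ (1 + ∑ i, a i • B i).det ≠ 0

/-- [E3] an alternating product on a nonzero finite `𝔽_p`-space: some `a ≠ 0` for which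
`c ↦ c + θ c a` is injective. -/
def PkgE3 : Prop :=
  ∀ (p : ℕ) [Fact p.Prime] {U : Type u} [AddCommGroup U] [Module (ZMod p) U] [Finite U]
    [Nontrivial U] (θ : U →ₗ[ZMod p] U →ₗ[ZMod p] U), (∀ c, θ c c = 0) →
    ∃ a : U, a ≠ 0 ∧ ∀ c : U, c + θ c a = 0 → c = 0

/-- [LIN] the linear algebra lemma, stated on a group: `L` a space of alternating biadditive forms
none of which (except `0`) vanishes on the kernel of `χ₀`; then another kernel has this property. -/
def PkgLin : Prop :=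
  ∀ {G : Type u} [Group G] [Finite G] (p : ℕ) [Fact p.Prime]
    (L : Submodule (ZMod p) (G → G → ZMod p)),
    (∀ β ∈ L, ∀ x x' z, β (x * x') z = β x z + β x' z) →
    (∀ β ∈ L, ∀ x z z', β x (z * z') = β x z + β x z') →
    (∀ β ∈ L, ∀ x, β x x = 0) →
    (∃ β ∈ L, β ≠ 0) →
    ∀ (χ₀ : G → ZMod p), (∀ x z, χ₀ (x * z) = χ₀ x + χ₀ z) → (∃ x, χ₀ x ≠ 0) →
      (∀ β ∈ L, (∀ x z, χ₀ x = 0 → χ₀ z = 0 → β x z = 0) → β = 0) →
      ∃ χ : G → ZMod p, (∀ x z, χ (x * z) = χ x + χ z) ∧ (∃ x, χ x ≠ 0) ∧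
        (∃ x, χ₀ x = 0 ∧ χ x ≠ 0) ∧
        ∀ β ∈ L, (∀ x z, χ x = 0 → χ z = 0 → β x z = 0) → β = 0

/-- [E] case `C' = G' ≠ 1`: a second maximal subgroup `M` with `M' = G'`. -/
def PkgE : Prop :=
  ∀ {G : Type u} [Group G] [Finite G] (p : ℕ) [Fact p.Prime], IsPGroup p G →
    ∀ (C : Subgroup G), C.index = p → ⁅C, C⁆ = commutator G → commutator G ≠ ⊥ →
      ∃ M : Subgroup G, M.index = p ∧ M ≠ C ∧ ⁅M, M⁆ = commutator G

end Cfsg.Agent.Lib.Helper33.Breadth
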